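import Cfsg.Agent.Lib.Inv.Binary

/-! Binary actions whose point stabilizers lie in an abelian TI-subgroup. -/

set_option autoImplicit false

namespace Cfsg.Lib.Bin

open Subgroup Cfsg.Lib.Transfer Cfsg.Lib.BG

variable {G : Type*} [Group G] {A H : Subgroup G}

theorem Tri.comm_of_ti (hT : Tri H) (hA : H ≤ A) (hc : ∀ a ∈ A, ∀ b ∈ A, a * b = b * a)
    (hti : ∀ g : G, ∀ y ∈ A, y ≠ 1 → g * y * g⁻¹ ∈ A → g ∈ 𝐍(A)) {x y z a b : G} (hx : x ∈ H)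
    (hy : y ∈ H) (hz : z ∈ H) (ha : IsConj x a) (hb : IsConj y b) (hab : IsConj z (a * b)) :
    a * b = b * a := by
  obtain ⟨g₂, rfl⟩ := isConj_iff.1 ha
  obtain ⟨g₃, rfl⟩ := isConj_iff.1 hb
  obtain ⟨g₁, e⟩ := isConj_iff.1 hab
  have h1 : g₂ * x * g₂⁻¹ * (g₃ * y * g₃⁻¹) ∈ g₁ ⋆ H := e ▸ conj_mem_conj.2 hz
  have key : ∀ g v : G, v ∈ g₁ ⋆ H ⊓ g ⋆ H → v ≠ 1 → ∀ u ∈ H, g * u * g⁻¹ ∈ g₁ ⋆ A :=
    fun g v hv v1 u hu => by
      have := hti (g₁⁻¹ * g) _ (hA (mem_conj.1 hv.2))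
        (fun e => v1 (conj_eq_one_iff.1 (by rwa [inv_inv] : g⁻¹ * v * g⁻¹⁻¹ = 1)))
        (by simpa [mul_assoc] using hA (mem_conj.1 hv.1))
      exact mem_conj.2 (by simpa [mul_assoc] using conj_mem_of_norm this (hA hu))
  have hc' : ∀ a ∈ g₁ ⋆ A, ∀ b ∈ g₁ ⋆ A, a * b = b * a := by
    rintro _ ⟨a, ha, rfl⟩ _ ⟨b, hb, rfl⟩
    rw [← map_mul, hc a ha b hb, map_mul]
  obtain ⟨b', hb', c', hc'', e'⟩ := hT _ _ _ (Cl.self.conj g₁) (Cl.self.conj g₂) (Cl.self.conj g₃)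
    _ (conj_mem_conj.2 hx) _ (conj_mem_conj.2 hy) h1
  have h2 := conj_mono g₁ hA h1
  by_cases b1 : b' = 1
  · by_cases c1 : c' = 1
    · rw [b1, c1, mul_one] at e'
      rw [e', (mul_eq_one_comm.1 e')]
    · have := key g₃ c' hc'' c1 y hy
      exact hc' _ ((mul_mem_cancel_right this).1 h2) _ this
  · have := key g₂ b' hb' b1 x hx
    exact hc' _ this _ ((mul_mem_cancel_left this).1 h2)

end Cfsg.Lib.Bin
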